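import Cfsg.Agent.SP.Mon.Two.Quad

/-! # S5755, the Monster, 2-local subgroups: elements of prime order normalising a singular subgroup or an ark

Abstract form: the counts in the stabilisers of pairs and triples of points are hypotheses. -/

set_option autoImplicit false
set_option linter.unusedSectionVars false

namespace Cfsg.Agent.SP.Mon.Two

open Cfsg.Agent.R2.M7
open Subgroup (centralizer)

variable {G : Type*} [Group G] [Finite G]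

/-- collinear points -/
def Col (Γ : Geo G) (a b : G) : Prop := a ∈ Γ.Pt ∧ b ∈ Γ.Pt ∧ b ∈ Γ.QQ a ∧ b ≠ a

/-- the points collinear with a line -/
def SS (Γ : Geo G) (a b : G) : Set G := {w | w ∈ Γ.Pt ∧ w ∈ Γ.QQ a ∧ w ∈ Γ.QQ b ∧ w ≠ a ∧ w ≠ b ∧ w ≠ a * b}

/-- `x` normalises `F` -/
def Nm (F : Subgroup G) (x : G) : Prop := ∀ a ∈ F, x * a * x⁻¹ ∈ F

theorem conj_inj {x a b : G} (h : x * a * x⁻¹ = x * b * x⁻¹) : a = b := mul_left_cancel (mul_right_cancel h)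

theorem conj_ne {x a : G} (h : a ≠ 1) : x * a * x⁻¹ ≠ 1 := fun e => h (conj_inj (x := x) (by simpa using e))

theorem ncard_prod_le {α β : Type*} [Finite α] [Finite β] {X : Set (α × β)} {Y : Set α} {Z : Set β} {m n : ℕ}
    (h : ∀ p ∈ X, p.1 ∈ Y ∧ p.2 ∈ Z) (hm : Y.ncard ≤ m) (hn : Z.ncard ≤ n) : X.ncard ≤ m * n := by
  refine (Set.ncard_le_ncard (t := Y ×ˢ Z) h (Set.toFinite _)).trans ?_
  rw [Set.ncard_prod]
  exact Nat.mul_le_mul hm hn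

/-- the involutions with a commutator in a given set -/
theorem comm_count {A : G → Prop} (hA : ∀ x g, A x → A (g * x * g⁻¹)) (h2 : ∀ x, A x → x * x = 1) {W : Set G} {k n : ℕ}
    (hk : W.ncard ≤ k) (hn : ∀ w ∈ W, {t | A t ∧ A (t * w)}.ncard ≤ n) :
    {x | A x ∧ ∃ u, u * u = 1 ∧ x * u * x⁻¹ * u ∈ W}.ncard ≤ k * n := by
  refine (cov (fun x w => A (x * w)) (Set.toFinite _) (Set.toFinite W) (f := n) ?_ fun w hw => ?_).trans
    (Nat.mul_le_mul_right _ hk)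
  · rintro x ⟨hx, u, hu, hw⟩
    refine ⟨_, hw, ?_⟩
    have h1 := hA x u hx
    rw [inv_eq_of_mul_eq_one_left hu] at h1
    rw [inv_eq_of_mul_eq_one_left (h2 x hx), show x * (x * u * x * u) = x * x * (u * x * u) by group, h2 x hx, one_mul]
    exact h1
  · exact le_trans (Set.ncard_le_ncard (fun x hx => And.intro hx.1.1 hx.2) (Set.toFinite _)) (hn w hw)

variable {Γ : Geo G} (hB : Γ.Basic)
include hB

theorem Col.mul {a b : G} (h : Col Γ a b) : a * b ∈ Γ.Pt := hB.line a h.1 b h.2.1 h.2.2.2.symm h.2.2.1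

theorem Col.comm {a b : G} (h : Col Γ a b) : a * b = b * a := (hB.QQ_comm a h.1 b h.2.2.1).symm

/-- an element rotating a line permutes the points collinear with it -/
theorem SS_rot {x v w : G} (h : Col Γ v w) (h1 : x * v * x⁻¹ = w) (h2 : x * w * x⁻¹ = v * w) {s : G}
    (hs : s ∈ SS Γ v w) : x * s * x⁻¹ ∈ SS Γ v w := by
  obtain ⟨s1, s2, s3, s4, s5, s6⟩ := hs
  have h3 : x * (v * w) * x⁻¹ = v := by
    calc x * (v * w) * x⁻¹ = (x * v * x⁻¹) * (x * w * x⁻¹) := by group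
      _ = v := by rw [h1, h2, h.comm hB, ← mul_assoc, hB.pt_sq w h.2.1, one_mul]
  refine ⟨hB.pt_conj s s1 x, ?_, ?_, fun e => s6 (conj_inj (e.trans h3.symm)), fun e => s4 (conj_inj (e.trans h1.symm)),
    fun e => s5 (conj_inj (e.trans h2.symm))⟩
  · have := hB.QQ_conj _ (h.mul hB) x s (hB.line_inf v h.1 w h.2.1 h.2.2.2.symm h.2.2.1 s s2 s3)
    rwa [h3] at this
  · have := hB.QQ_conj _ h.1 x s s2
    rwa [h1] at this

section sing

variable {F : Subgroup G} (hS : Γ.Sing F)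
include hS

theorem s_sq {a : G} (ha : a ∈ F) : a * a = 1 := by
  by_cases h : a = 1
  · rw [h, one_mul]
  · exact hB.pt_sq a (hS.1 a ha h)

theorem s_comm {a b : G} (ha : a ∈ F) (hb : b ∈ F) : a * b = b * a := by
  by_cases h : a = 1
  · rw [h, one_mul, mul_one]
  · exact (hB.QQ_comm a (hS.1 a ha h) b (hS.2 a ha h b hb)).symm

omit hB in
theorem s_col {a b : G} (ha : a ∈ F) (hb : b ∈ F) (h1 : a ≠ 1) (h2 : b ≠ 1) (h3 : b ≠ a) : Col Γ a b :=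
  ⟨hS.1 a ha h1, hS.1 b hb h2, hS.2 a ha h1 b hb, h3⟩

theorem s_eq {a b : G} (hb : b ∈ F) (h : a * b = 1) : a = b :=
  mul_right_cancel (h.trans (s_sq hB hS hb).symm)

variable (hc : (F : Set G).ncard ≤ 32) {a b : G} (ha : a ∈ F) (hb : b ∈ F) (ha1 : a ≠ 1) (hb1 : b ≠ 1) (hab : b ≠ a)
include hc ha hb ha1 hb1 hab

/-- **Involutions.** -/
theorem sing_inv {n : ℕ} (hn : ∀ a b, Col Γ a b →
    {x : G | x * x = 1 ∧ x * a = a * x ∧ (x * b * x⁻¹ = b ∨ x * b * x⁻¹ = a * b)}.ncard ≤ n) :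
    {x | Nm F x ∧ x * x = 1}.ncard ≤ 512 * n := by
  have h := dc (fun (p : G × G) (x : G) => x * p.1 = p.1 * x ∧ (x * p.2 * x⁻¹ = p.2 ∨ x * p.2 * x⁻¹ = p.1 * p.2))
    (X := {p | (p.1 ∈ F ∧ p.2 ∈ F) ∧ p.1 ≠ 1 ∧ p.2 ≠ 1 ∧ p.2 ≠ p.1}) (Ob := {x | Nm F x ∧ x * x = 1})
    (Set.toFinite _) (Set.toFinite _) (m := 2) (f := n) (fun x hx => ?_) (fun p hp => ?_)
  · have h1 := Nat.mul_le_mul_right n (ncard_prod_le
      (X := {p : G × G | (p.1 ∈ F ∧ p.2 ∈ F) ∧ p.1 ≠ 1 ∧ p.2 ≠ 1 ∧ p.2 ≠ p.1}) (fun p hp => hp.1) hc hc)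
    omega
  · obtain ⟨w, hw, u, hu, w1, u1, uw, h1, h2⟩ : ∃ w ∈ F, ∃ u ∈ F, w ≠ 1 ∧ u ≠ 1 ∧ u ≠ w ∧ x * w = w * x ∧
        (x * u * x⁻¹ = u ∨ x * u * x⁻¹ = w * u) := by
      by_cases h0 : ∀ u ∈ F, x * u * x⁻¹ = u
      · exact ⟨a, ha, b, hb, ha1, hb1, hab, mul_inv_eq_iff_eq_mul.1 (h0 a ha), Or.inl (h0 b hb)⟩
      push Not at h0
      obtain ⟨u, hu, hne⟩ := h0
      have u1 : u ≠ 1 := by rintro rfl; simp at hne
      refine ⟨x * u * x⁻¹ * u, F.mul_mem (hx.1 u hu) hu, u, hu, fun e => hne (s_eq hB hS hu e), u1,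
        fun e => conj_ne u1 (mul_eq_right.1 e.symm), ?_, Or.inr (by rw [mul_assoc _ u u, s_sq hB hS hu, mul_one])⟩
      rw [s_comm hB hS (hx.1 u hu) hu, ← mul_inv_eq_iff_eq_mul]
      calc x * (u * (x * u * x⁻¹)) * x⁻¹ = x * u * x⁻¹ * ((x * x) * u * (x * x)⁻¹) := by group
        _ = u * (x * u * x⁻¹) := by rw [hx.2, s_comm hB hS hu (hx.1 u hu)]; simp
    have hw' : x * w * x⁻¹ = w := mul_inv_eq_iff_eq_mul.2 h1
    refine (Set.one_lt_ncard (Set.toFinite _)).2 ⟨(w, u), ⟨⟨⟨hw, hu⟩, w1, u1, uw⟩, h1, h2⟩, (w, w * u),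
      ⟨⟨⟨hw, F.mul_mem hw hu⟩, w1, fun e => uw (s_eq hB hS hu e).symm, fun e => u1 (mul_eq_left.1 e)⟩, h1, ?_⟩,
      fun e => w1 (mul_eq_right.1 (congrArg Prod.snd e).symm)⟩
    have e : x * (w * u) * x⁻¹ = w * (x * u * x⁻¹) := by
      conv_rhs => rw [← hw']
      group
    rw [e]
    exact h2.imp (fun h => by rw [h]) fun h => by rw [h]
  · exact le_trans (Set.ncard_le_ncard (fun x hx => And.intro hx.1.2 hx.2) (Set.toFinite _))
      (hn _ _ (s_col hS hp.1.1 hp.1.2 hp.2.1 hp.2.2.1 hp.2.2.2))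

/-- **Involutions of class `2A`.** -/
theorem sing_invA {A : G → Prop} (hA : ∀ x g, A x → A (g * x * g⁻¹)) (h2 : ∀ x, A x → x * x = 1) {m n : ℕ}
    (hm : ∀ a b, Col Γ a b → {x | A x ∧ x * a = a * x ∧ x * b = b * x}.ncard ≤ m)
    (hn : ∀ w ∈ Γ.Pt, {t | A t ∧ A (t * w)}.ncard ≤ n) : {x | Nm F x ∧ A x}.ncard ≤ m + 32 * n := by
  refine le_trans (ncard_cases (Set.toFinite _) (Set.toFinite _) fun x hx => ?_) (Nat.add_le_add
    (hm a b (s_col hS ha hb ha1 hb1 hab)) (comm_count hA h2 (W := {w | w ∈ F ∧ w ≠ 1})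
      (le_trans (Set.ncard_le_ncard (fun _ h => h.1) (Set.toFinite _)) hc) fun w hw => hn w (hS.1 w hw.1 hw.2)))
  by_cases h0 : ∀ u ∈ F, x * u * x⁻¹ = u
  · exact Or.inl ⟨hx.2, mul_inv_eq_iff_eq_mul.1 (h0 a ha), mul_inv_eq_iff_eq_mul.1 (h0 b hb)⟩
  push Not at h0
  obtain ⟨u, hu, hne⟩ := h0
  exact Or.inr ⟨hx.2, u, s_sq hB hS hu, F.mul_mem (hx.1 u hu) hu, fun e => hne (s_eq hB hS hu e)⟩

/-- **Elements of order 3.** -/
theorem sing_three (h7084 : ∀ a b, Col Γ a b → (SS Γ a b).ncard = 7084) {P : G → Prop} (hP : ∀ x, P x → x ^ 3 = 1)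
    {m n : ℕ} (hm : ∀ a b, Col Γ a b → {x | P x ∧ x * a = a * x ∧ x * b = b * x}.ncard ≤ m)
    (hn : ∀ c v w, Col Γ c v → w ∈ SS Γ c v →
      {x | P x ∧ x * c = c * x ∧ x * v * x⁻¹ = w ∧ v * w * (x * w * x⁻¹) = 1}.ncard ≤ n) :
    {x | Nm F x ∧ P x}.ncard ≤ m + 259456 * n := by
  let R : G → G × G × G → Prop := fun x p => x * p.1 = p.1 * x ∧ x * p.2.1 * x⁻¹ = p.2.2 ∧
    p.2.1 * p.2.2 * (x * p.2.2 * x⁻¹) = 1
  let P₁ : Set (G × G × G) := {p | p.1 ∈ F ∧ p.2.1 ∈ F ∧ p.2.2 ∈ F}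
  let P₂ : Set (G × G × G) := {p | p.2.1 = a ∧ p.2.2 ∈ F ∧ Col Γ a p.2.2 ∧ p.1 ∈ SS Γ a p.2.2}
  have c1 : P₁.ncard ≤ 32 * (32 * 32) := ncard_prod_le (Z := {p : G × G | p.1 ∈ F ∧ p.2 ∈ F}) (fun _ h => h) hc
    (ncard_prod_le (fun _ h => h) hc hc)
  have c2 : P₂.ncard ≤ 32 * 7084 := by
    refine (fib_le (fun p => p.2.2) (P := {w | w ∈ F ∧ Col Γ a w}) (Set.toFinite _) (Set.toFinite _) (f := 7084)
      (fun p hp => ⟨hp.2.1, hp.2.2.1⟩) fun w hw => ?_).trans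
      (Nat.mul_le_mul_right _ (le_trans (Set.ncard_le_ncard (fun _ h => h.1) (Set.toFinite _)) hc))
    rw [← h7084 a w hw.2]
    refine ncard_le_of_inj Prod.fst (Set.toFinite _) (fun p hp => hp.2 ▸ hp.1.2.2.2) fun p hp q hq e => ?_
    exact Prod.ext e (Prod.ext (hp.1.1.trans hq.1.1.symm) (hp.2.trans hq.2.symm))
  have c3 : {p | p ∈ P₁ ∪ P₂ ∧ Col Γ p.1 p.2.1 ∧ p.2.2 ∈ SS Γ p.1 p.2.1}.ncard ≤ 259456 :=
    (ncard_cases (Set.toFinite P₁) (Set.toFinite P₂) fun _ h => h.1).trans (Nat.add_le_add c1 c2)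
  refine le_trans (ncard_cases (Z := {x | (Nm F x ∧ P x) ∧ ¬ ∀ u ∈ F, x * u * x⁻¹ = u}) (Set.toFinite _)
    (Set.toFinite _) fun x hx => ?_) (Nat.add_le_add (hm a b (s_col hS ha hb ha1 hb1 hab))
      ((cov R (Set.toFinite _) (Set.toFinite _) (fun x hx => ?_) fun p hp => ?_).trans (Nat.mul_le_mul_right _ c3)))
  · exact (em _).imp (fun h0 => ⟨hx.2, mul_inv_eq_iff_eq_mul.1 (h0 a ha), mul_inv_eq_iff_eq_mul.1 (h0 b hb)⟩)
      fun h0 => ⟨hx, h0⟩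
  · obtain ⟨⟨hN, hx⟩, h0⟩ := hx
    have h3 : ∀ u, x * (x * (x * u * x⁻¹) * x⁻¹) * x⁻¹ = u := fun u => by
      calc x * (x * (x * u * x⁻¹) * x⁻¹) * x⁻¹ = x ^ 3 * u * (x ^ 3)⁻¹ := by simp only [pow_succ, pow_zero]; group
        _ = u := by rw [hP x hx]; simp
    have hmul : ∀ u v, x * (u * v) * x⁻¹ = x * u * x⁻¹ * (x * v * x⁻¹) := fun u v => by group
    -- a rotated line
    have rot : ∀ v ∈ F, v ≠ 1 → v * (x * v * x⁻¹) * (x * (x * v * x⁻¹) * x⁻¹) = 1 →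
        x * v * x⁻¹ ≠ v ∧ x * (x * v * x⁻¹) * x⁻¹ = v * (x * v * x⁻¹) := fun v hv v1 e => by
      refine ⟨fun e' => v1 ?_, (s_eq hB hS (hN _ (hN v hv)) e).symm⟩
      rwa [e', e', s_sq hB hS hv, one_mul] at e
    by_cases hfix : ∃ c ∈ F, c ≠ 1 ∧ x * c * x⁻¹ = c
    · obtain ⟨c, hcF, c1, hc'⟩ := hfix
      push Not at h0
      obtain ⟨u, hu, hne⟩ := h0
      have hu1 := hN u hu
      have hu2 := hN _ hu1
      have hv := F.mul_mem hu hu1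
      have v1 : u * (x * u * x⁻¹) ≠ 1 := fun e => hne (s_eq hB hS hu1 e).symm
      have e : u * (x * u * x⁻¹) * (x * (u * (x * u * x⁻¹)) * x⁻¹) * (x * (x * (u * (x * u * x⁻¹)) * x⁻¹) * x⁻¹) = 1 := by
        rw [hmul u, hmul (x * u * x⁻¹), h3]
        generalize x * (x * u * x⁻¹) * x⁻¹ = u2 at hu2
        generalize x * u * x⁻¹ = u1 at hu1
        calc u * u1 * (u1 * u2) * (u2 * u) = u * (u1 * u1) * (u2 * u2) * u := by group
          _ = 1 := by rw [s_sq hB hS hu1, s_sq hB hS hu2, mul_one, mul_one, s_sq hB hS hu]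
      generalize u * (x * u * x⁻¹) = v at hv v1 e
      obtain ⟨r1, r2⟩ := rot v hv v1 e
      have hw := hN v hv
      refine ⟨(c, v, x * v * x⁻¹), ⟨Or.inl ⟨hcF, hv, hw⟩, s_col hS hcF hv c1 v1 (fun h : v = c => r1 (by rw [h, hc'])),
        hS.1 _ hw (conj_ne v1), hS.2 c hcF c1 _ hw, hS.2 v hv v1 _ hw,
        fun h => r1 (by rw [conj_inj (h.trans hc'.symm), hc']), r1, fun h => v1 ?_⟩,
        mul_inv_eq_iff_eq_mul.1 hc', rfl, e⟩
      have h' : x * v * x⁻¹ = c * v := h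
      rw [h', hmul, hc', h', ← mul_assoc, s_sq hB hS hcF, one_mul, s_comm hB hS hcF hv, ← mul_assoc, s_sq hB hS hv,
        one_mul] at r2
      rw [r2, hc', s_sq hB hS hcF] at h'
      exact absurd h' c1
    · push Not at hfix
      have hw := hN a ha
      have e : a * (x * a * x⁻¹) * (x * (x * a * x⁻¹) * x⁻¹) = 1 := by
        by_contra hne
        refine hfix _ (F.mul_mem (F.mul_mem ha hw) (hN _ hw)) hne ?_
        rw [hmul, hmul, h3, s_comm hB hS (F.mul_mem hw (hN _ hw)) ha, mul_assoc a]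
      obtain ⟨r1, r2⟩ := rot a ha ha1 e
      have hcol := s_col hS ha hw ha1 (conj_ne ha1) r1
      obtain ⟨c, hcS, hcx⟩ := exists_fix Nat.prime_three (hP x hx) (S := SS Γ a (x * a * x⁻¹))
        (fun s hs => SS_rot hB hcol rfl r2 hs) (by rw [h7084 _ _ hcol]; norm_num)
      refine ⟨(c, a, x * a * x⁻¹), ⟨Or.inr ⟨rfl, hw, hcol, hcS⟩, ⟨hcS.1, hcol.1, hB.symm _ hcol.1 _ hcS.1 hcS.2.1,
        hcS.2.2.2.1.symm⟩, hcol.2.1, hB.symm _ hcol.2.1 _ hcS.1 hcS.2.2.1, hcol.2.2.1, hcS.2.2.2.2.1.symm, r1,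
        fun h => hcS.2.2.2.2.2 ?_⟩, hcx, rfl, e⟩
      have h' : x * a * x⁻¹ = c * a := h
      rw [s_comm hB hS ha hw, h', mul_assoc, s_sq hB hS ha, mul_one]
  · exact le_trans (Set.ncard_le_ncard (fun x hx => And.intro hx.1.1.2 hx.2) (Set.toFinite _)) (hn _ _ _ hp.2.1 hp.2.2)

/-- **Elements of prime order at least 5.** -/
theorem sing_big {r : ℕ} (hr : r.Prime) (h5 : 5 ≤ r) {n : ℕ}
    (hm : ∀ a b, Col Γ a b → {x | x * a = a * x ∧ x * b = b * x}.ncard ≤ 32768 * n)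
    (hn : ∀ a b w, Col Γ a b → w ∈ SS Γ a b → Nat.card (centralizer ({a, b, w} : Set G)) ≤ n) :
    {x | Nm F x ∧ x ^ r = 1}.ncard ≤ 32768 * n := by
  have hcol := s_col hS ha hb ha1 hb1 hab
  by_cases h : ∃ w ∈ F, w ≠ 1 ∧ w ≠ a ∧ w ≠ b ∧ w ≠ a * b
  · obtain ⟨w, hw, w1, w2⟩ := h
    have c1 : {p : G × G × G | p.1 ∈ F ∧ p.2.1 ∈ F ∧ p.2.2 ∈ F}.ncard ≤ 32 * (32 * 32) :=
      ncard_prod_le (Z := {p : G × G | p.1 ∈ F ∧ p.2 ∈ F}) (fun _ h => h) hc (ncard_prod_le (fun _ h => h) hc hc)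
    refine (fib_le (fun x => (x * a * x⁻¹, x * b * x⁻¹, x * w * x⁻¹)) (Set.toFinite _) (Set.toFinite _)
      (fun x hx => And.intro (hx.1 a ha) (And.intro (hx.1 b hb) (hx.1 w hw))) fun p _ => ?_).trans (Nat.mul_le_mul_right _ c1)
    refine (ncard_le_of_quot fun x hx y hy => ?_).trans
      (hn a b w hcol ⟨hS.1 w hw w1, hS.2 a ha ha1 w hw, hS.2 b hb hb1 w hw, w2⟩)
    have e := hx.2.trans hy.2.symm
    have key : ∀ u, x * u * x⁻¹ = y * u * y⁻¹ → u * (x⁻¹ * y) = x⁻¹ * y * u := fun u h => by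
      calc u * (x⁻¹ * y) = x⁻¹ * (x * u * x⁻¹) * y := by group
        _ = x⁻¹ * y * u := by rw [h]; group
    rw [Subgroup.mem_centralizer_iff]
    rintro u (rfl | rfl | rfl)
    · exact key _ (congrArg (·.1) e)
    · exact key _ (congrArg (·.2.1) e)
    · exact key _ (congrArg (·.2.2) e)
  · push Not at h
    have c1 : {w | w ∈ F ∧ w ≠ 1}.ncard < r := by
      refine lt_of_le_of_lt (Set.ncard_le_ncard (t := {a, b, a * b}) (fun w hw => ?_) (Set.toFinite _)) ?_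
      · by_cases h1 : w = a
        · exact Or.inl h1
        by_cases h2 : w = b
        · exact Or.inr (Or.inl h2)
        · exact Or.inr (Or.inr (h w hw.1 hw.2 h1 h2))
      · have := Set.ncard_insert_le a {b, a * b}
        have := Set.ncard_insert_le b {a * b}
        rw [Set.ncard_singleton] at this
        omega
    refine le_trans (Set.ncard_le_ncard (fun x hx => ?_) (Set.toFinite _)) (hm a b hcol)
    have k : ∀ u ∈ F, u ≠ 1 → x * u = u * x := fun u hu u1 =>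
      fix_small hr hx.2 (S := {w | w ∈ F ∧ w ≠ 1}) (fun w hw => ⟨hx.1 w hw.1, conj_ne hw.2⟩) c1 ⟨hu, u1⟩
    exact ⟨k a ha ha1, k b hb hb1⟩

end sing

section ark

variable {O : Subgroup G} (hA : Γ.ArkFacts) (hO : O ∈ Γ.Ark) (h527 : {a | a ∈ O ∧ a ∈ Γ.Pt}.ncard = 527)
include hA hO h527

omit h527 in
theorem ark_col {U : Subgroup G} (hU : U ≤ O) (hk : ∀ u ∈ U, Γ.kap u = 0) {a b : G} (ha : a ∈ U) (hb : b ∈ U) (ha1 : a ≠ 1)
    (hb1 : b ≠ 1) (hab : b ≠ a) : Col Γ a b :=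
  have h1 := (kap_zero.1 (hk a ha)).resolve_left ha1
  ⟨h1, (kap_zero.1 (hk b hb)).resolve_left hb1, (hA.bet_iff O hO a (hU ha) h1 b (hU hb)).2
    (bet_zero (hk b hb) (hk a ha) (hk _ (U.mul_mem hb ha))), hab⟩

omit hA hO h527 hB in
theorem pairs_ge {U : Subgroup G} (h : 16 ≤ Nat.card U) :
    210 ≤ {p : G × G | p.1 ∈ U ∧ p.2 ∈ U ∧ p.1 ≠ 1 ∧ p.2 ≠ 1 ∧ p.2 ≠ p.1}.ncard := by
  have h0 : (U : Set G).ncard = Nat.card U := rfl
  have h1 := dc (fun (p : G × G) (a : G) => p.1 = a)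
    (X := {p : G × G | p.1 ∈ U ∧ p.2 ∈ U ∧ p.1 ≠ 1 ∧ p.2 ≠ 1 ∧ p.2 ≠ p.1}) (Ob := (U : Set G) \ {1}) (Set.toFinite _)
    (Set.toFinite _) (m := 14) (f := 1) (fun a ha => ?_)
    (fun p _ => (Set.ncard_le_one (Set.toFinite _)).2 fun a ha b hb => ha.2.symm.trans hb.2)
  · have h2 := Set.ncard_le_ncard_sdiff_add_ncard (U : Set G) ({1} : Set G) (Set.toFinite _)
    rw [Set.ncard_singleton] at h2
    omega
  · have h2 := Set.ncard_le_ncard_sdiff_add_ncard (U : Set G) ({1, a} : Set G) (Set.toFinite _)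
    have h3 := Set.ncard_insert_le (1 : G) {a}
    rw [Set.ncard_singleton] at h3
    refine le_trans (by omega : 14 ≤ ((U : Set G) \ {1, a}).ncard)
      (ncard_le_of_inj (fun b => (a, b)) (Set.toFinite _) (fun b hb => ?_) fun _ _ _ _ e => congrArg Prod.snd e)
    exact ⟨⟨ha.1, hb.1, ha.2, fun e => hb.2 (Or.inl e), fun e => hb.2 (Or.inr e)⟩, rfl⟩

/-- **Involutions.** -/
theorem ark_inv {n : ℕ} (hn : ∀ a b, Col Γ a b →
    {x : G | x * x = 1 ∧ x * a = a * x ∧ (x * b * x⁻¹ = b ∨ x * b * x⁻¹ = a * b)}.ncard ≤ n) :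
    {x | Nm O x ∧ x * x = 1}.ncard ≤ 678 * n := by
  have h := dc (fun (p : G × G) (x : G) => x * p.1 = p.1 * x ∧ x * p.2 = p.2 * x)
    (X := {p | (p.1 ∈ O ∧ p.2 ∈ O) ∧ Col Γ p.1 p.2}) (Ob := {x | Nm O x ∧ x * x = 1})
    (Set.toFinite _) (Set.toFinite _) (m := 210) (f := n) (fun x hx => ?_) (fun p hp => ?_)
  · have h1 := Nat.mul_le_mul_right n (le_trans (Set.ncard_le_ncard
      (s := {p : G × G | (p.1 ∈ O ∧ p.2 ∈ O) ∧ Col Γ p.1 p.2})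
      (fun p hp => And.intro (And.intro hp.1.1 hp.2.1) (And.intro (And.intro hp.1.2 hp.2.2.1) (hp.2.mul hB)))
      (Set.toFinite _)) (pairs_le hA hO h527 hB))
    omega
  · obtain ⟨U, hU, h16, hk⟩ := lag hA hO h527 hB hx.2 hx.1
    exact (pairs_ge h16).trans (Set.ncard_le_ncard (fun p hp => ⟨⟨⟨hU hp.1, hU hp.2.1⟩,
      ark_col hB hA hO hU (fun u hu => (hk u hu).1) hp.1 hp.2.1 hp.2.2.1 hp.2.2.2.1 hp.2.2.2.2⟩,
      (hk _ hp.1).2, (hk _ hp.2.1).2⟩) (Set.toFinite _))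
  · exact le_trans (Set.ncard_le_ncard (fun x hx => And.intro hx.1.2 (And.intro hx.2.1
      (Or.inl (mul_inv_eq_iff_eq_mul.2 hx.2.2)))) (Set.toFinite _)) (hn _ _ hp.2)

/-- **Involutions of class `2A`.** -/
theorem ark_invA {A : G → Prop} (hA' : ∀ x g, A x → A (g * x * g⁻¹)) (h2 : ∀ x, A x → x * x = 1) {m n : ℕ}
    (hm : ∀ a b, Col Γ a b → {x | A x ∧ x * a = a * x ∧ x * b = b * x}.ncard ≤ m)
    (hn : ∀ w ∈ Γ.Pt, {t | A t ∧ A (t * w)}.ncard ≤ n) : {x | Nm O x ∧ A x}.ncard ≤ m + 527 * n := by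
  obtain ⟨U, hU, h16, hk⟩ := lag hA hO h527 hB (t := 1) (mul_one 1) (fun a ha => by simpa using ha)
  obtain ⟨p, hp⟩ := Set.nonempty_of_ncard_ne_zero ((pairs_ge h16).trans_lt' (by norm_num : 0 < 210)).ne'
  refine le_trans (ncard_cases (Set.toFinite _) (Set.toFinite _) fun x hx => ?_) (Nat.add_le_add
    (hm _ _ (ark_col hB hA hO hU (fun u hu => (hk u hu).1) hp.1 hp.2.1 hp.2.2.1 hp.2.2.2.1 hp.2.2.2.2))
    (comm_count hA' h2 h527.le fun w hw => hn w hw.2))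
  by_cases h0 : ∃ a ∈ O, x * a ≠ a * x
  · obtain ⟨u, hu, h1⟩ := exists_comm_pt hA hO hB (h2 x hx.2) hx.1 h0
    exact Or.inr ⟨hx.2, u, hA.sq O hO u hu, O.mul_mem (hx.1 u hu) hu, h1⟩
  · push Not at h0
    exact Or.inl ⟨hx.2, h0 _ (hU hp.1), h0 _ (hU hp.2.1)⟩

omit hA hO in
/-- **Elements with a fixed point.** -/
theorem ark_fix {r : ℕ} (hr : r.Prime) (hd : ¬ r ∣ 527) {P : G → Prop} (hP : ∀ x, P x → x ^ r = 1) {n : ℕ}
    (hn : ∀ c ∈ O, c ∈ Γ.Pt → {x | P x ∧ x * c = c * x ∧ Nm O x}.ncard ≤ n) : {x | Nm O x ∧ P x}.ncard ≤ 527 * n := by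
  rw [← h527] at hd ⊢
  exact cov (fun x c => x * c = c * x) (Set.toFinite _) (Set.toFinite _)
    (fun x hx => exists_fix hr (hP x hx.2) (fun a ha => ⟨hx.1 a ha.1, hB.pt_conj a ha.2 x⟩) hd) fun c hc =>
      le_trans (Set.ncard_le_ncard (fun x hx => And.intro hx.1.2 (And.intro hx.2 hx.1.1)) (Set.toFinite _))
        (hn c hc.1 hc.2)

omit hA hO in
/-- **The normaliser.** -/
theorem ark_norm {n : ℕ} (hn : ∀ c ∈ O, c ∈ Γ.Pt → {x | x * c = c * x ∧ Nm O x}.ncard ≤ n) :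
    {x | Nm O x}.ncard ≤ 527 * n := by
  obtain ⟨c, hc⟩ := Set.nonempty_of_ncard_ne_zero (h527.trans_ne (by norm_num))
  rw [← h527]
  refine fib_le (fun x => x * c * x⁻¹) (Set.toFinite _) (Set.toFinite _)
    (fun x hx => ⟨hx c hc.1, hB.pt_conj c hc.2 x⟩) fun d _ => ?_
  refine (ncard_le_of_quot (K := centralizer {c} ⊓ Subgroup.normalizer (O : Set G)) fun x hx y hy => ⟨?_, ?_⟩).trans
    (le_trans (Set.ncard_le_ncard (fun x hx => ?_) (Set.toFinite _)) (hn c hc.1 hc.2))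
  · refine Subgroup.mem_centralizer_singleton_iff.2 ?_
    calc x⁻¹ * y * c = x⁻¹ * (y * c * y⁻¹) * y := by group
      _ = c * (x⁻¹ * y) := by rw [hy.2.trans hx.2.symm]; group
  · exact Subgroup.mul_mem _ (Subgroup.inv_mem _ (Subgroup.mem_normalizer_fintype hx.1))
      (Subgroup.mem_normalizer_fintype hy.1)
  · exact ⟨Subgroup.mem_centralizer_singleton_iff.1 hx.1, fun a ha => (Subgroup.mem_normalizer_iff.1 hx.2 a).1 ha⟩

end ark

end Cfsg.Agent.SP.Mon.Two
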