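import Cfsg.Agent.SP.Mon.Two.Lift
import Cfsg.Agent.SP.Mon.Two.Sing
import Cfsg.Agent.R2.H8.Mon.Ex
import Cfsg.Agent.H848.TenG

/-! # S5755, the Monster, 2-local subgroups: from the frame to all pairs, triples and arks -/

set_option autoImplicit false
set_option linter.unusedSectionVars false

namespace Cfsg.Agent.SP.Mon.Two

open Cfsg
open Cfsg.Agent.MonsterU.Lam2
open Cfsg.Agent.MonsterU.CoFrameL2
open Cfsg.Agent.MonsterU.Ch
open Cfsg.Agent.R2.H4.Mon.Frm Cfsg.Agent.R2.H4.Mon.GeoInst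
open Cfsg.Agent.R2.M7
open Cfsg.Agent.R2.M7.Geo (cj)
open Cfsg.Agent.H848.TenB (T)
open Cfsg.Spor (Co1)
open Subgroup (centralizer)

variable {G : Type*} [Group G] [Finite G] {Q : Subgroup G} {z : G} {eta : G → L2}
  {pi : centralizer ({z} : Set G) →* Co1} {y τ : G}

theorem back {k x a b : G} (h : x * (k * a * k⁻¹) * x⁻¹ = k * b * k⁻¹) : k⁻¹ * x * k * a * (k⁻¹ * x * k)⁻¹ = b := by
  calc k⁻¹ * x * k * a * (k⁻¹ * x * k)⁻¹ = k⁻¹ * (x * (k * a * k⁻¹) * x⁻¹) * k := by group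
    _ = b := by rw [h]; group

theorem back_comm {k x a : G} (h : x * (k * a * k⁻¹) = k * a * k⁻¹ * x) : k⁻¹ * x * k * a = a * (k⁻¹ * x * k) :=
  mul_inv_eq_iff_eq_mul.1 (back (mul_inv_eq_iff_eq_mul.2 h))

theorem SS_conj {Γ : Geo G} (hB : Γ.Basic) {a b w : G} (h : Col Γ a b) (g : G) (hw : w ∈ SS Γ a b) :
    g * w * g⁻¹ ∈ SS Γ (g * a * g⁻¹) (g * b * g⁻¹) :=
  ⟨hB.pt_conj w hw.1 g, hB.QQ_conj a h.1 g w hw.2.1, hB.QQ_conj b h.2.1 g w hw.2.2.1, fun e => hw.2.2.2.1 (conj_inj e),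
    fun e => hw.2.2.2.2.1 (conj_inj e), fun e => hw.2.2.2.2.2 (conj_inj (x := g) (e.trans (by group)))⟩

theorem ncard_pre (h : Chart Q z eta pi) (S : Set L2) : {w | w ∈ Q ∧ eta w ∈ S}.ncard = S.ncard * 2 := by
  have := finL2
  have key : ∀ q ∈ Q, q * z ≠ q ∧ eta (q * z) = eta q := fun q hq =>
    ⟨fun e => h.large.z_ne (mul_eq_left.1 e), by rw [h.eta_mul _ hq _ h.large.z_mem, h.eta_z, add_zero]⟩
  apply le_antisymm
  · refine fib_le eta (Set.toFinite _) (Set.toFinite _) (fun _ hw => hw.2) fun v _ => ?_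
    obtain ⟨q, hq, rfl⟩ := h.eta_surj v
    exact le_trans (Set.ncard_le_ncard (t := {q, q * z}) (fun w hw => (h.eta_eq hw.1.1 hq).1 hw.2) (Set.toFinite _))
      (Set.ncard_pair (key q hq).1.symm).le
  · have h1 := dc (fun w v => eta w = v) (X := {w | w ∈ Q ∧ eta w ∈ S}) (Ob := S) (Set.toFinite _) (Set.toFinite _)
      (m := 2) (f := 1) (fun v hv => ?_)
      (fun _ _ => (Set.ncard_le_one (Set.toFinite _)).2 fun a ha b hb => ha.2.symm.trans hb.2)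
    · rwa [mul_one] at h1
    · obtain ⟨q, hq, rfl⟩ := h.eta_surj v
      exact (Set.one_lt_ncard (Set.toFinite _)).2 ⟨q * z, ⟨⟨Q.mul_mem hq h.large.z_mem, (key q hq).2 ▸ hv⟩, (key q hq).2⟩,
        q, ⟨⟨hq, hv⟩, rfl⟩, (key q hq).1⟩

variable (F : Fr Q z eta pi y τ) (o : golayCode)
include F

theorem col_std : Col (geo F.ch o) z y := ⟨TwoB.self z, F.twoB_y, F.QQ_z.ge F.hyQ, F.y_ne⟩

theorem SS_std {w : G} : w ∈ SS (geo F.ch o) z y ↔ w ∈ Q ∧ eta w ∈ S4 := by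
  constructor
  · rintro ⟨h1, h2, h3, h4, h5, h6⟩
    have hq : w ∈ Q := F.QQ_z.le h2
    refine ⟨hq, (R2.H8.Mon.Sing.mem_EE_of F hq (Or.inl h3)).2, fun h => ?_, ?_⟩
    · rcases R2.H8.Mon.Adj.mem_of_W1 F hq h with e | e | e | e
      · exact (basic F o).pt_ne w h1 e
      · exact h4 e
      · exact h5 e
      · exact h6 (e.trans F.zy_comm.symm)
    · obtain ⟨g, rfl⟩ := h1
      exact MonsterU.Fused.type_four_of_conj F.ch hq h4
  · rintro ⟨hq, h1, h2, h3⟩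
    refine ⟨?_, F.QQ_z.ge hq, (R2.H4.Mon.Types.EE_le F ⟨hq, h1⟩).1, ?_, ?_, ?_⟩
    · obtain ⟨g, hg⟩ := exists_four h3
      obtain ⟨c, hc, rfl⟩ := pp_surj F.ch g
      rw [← F.hy, ← eta_pp F.ch hc F.hyQ] at hg
      rcases (F.ch.eta_eq hq (F.ch.large.conj_mem c hc y F.hyQ)).1 hg.symm with e | e <;> rw [e]
      · exact F.twoB_y.conj c
      · have h4 := F.twoB_zy.conj c
        rwa [F.zy_comm, ← mul_assoc, mul_assoc _ z, ← comm_inv hc, ← mul_assoc] at h4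
    · rintro rfl
      exact h2 (F.ch.eta_z ▸ W1.zero_mem)
    · rintro rfl
      exact h2 (F.hy ▸ f0_mem_W1)
    · rintro rfl
      exact h2 (by rw [F.ch.eta_mul _ F.ch.large.z_mem _ F.hyQ, F.ch.eta_z, zero_add, F.hy]; exact f0_mem_W1)

variable {o}

theorem col_conj {a b : G} (h : Col (geo F.ch o) a b) : ∃ k, k * z * k⁻¹ = a ∧ k * y * k⁻¹ = b :=
  R2.H8.Mon.Sing.pair_conj F h.1 h.2.1 h.2.2.1 h.2.2.2

theorem SS_back {k w : G} (h : Col (geo F.ch o) (k * z * k⁻¹) (k * y * k⁻¹))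
    (hw : w ∈ SS (geo F.ch o) (k * z * k⁻¹) (k * y * k⁻¹)) : k⁻¹ * w * k ∈ SS (geo F.ch o) z y := by
  simpa [mul_assoc] using SS_conj (basic F o) h k⁻¹ hw

theorem ncard_SS {a b : G} (h : Col (geo F.ch o) a b) : (SS (geo F.ch o) a b).ncard = 7084 := by
  have h0 : (SS (geo F.ch o) z y).ncard = 7084 := by
    rw [show SS (geo F.ch o) z y = {w | w ∈ Q ∧ eta w ∈ S4} from Set.ext fun _ => SS_std F o, ncard_pre F.ch, ncard_S4]
  obtain ⟨k, rfl, rfl⟩ := col_conj F h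
  rw [← h0]
  exact le_antisymm (ncard_conj_le k fun _ hw => SS_back F h hw)
    (ncard_conj_le k⁻¹ fun _ hw => by simpa using SS_conj (basic F o) (col_std F o) k hw)

theorem tr_pair {P : G → Prop} (hP : ∀ x g, P x → P (g⁻¹ * x * g)) {n : ℕ}
    (hn : {x | P x ∧ x * z = z * x ∧ x * y = y * x}.ncard ≤ n) (a b : G) (h : Col (geo F.ch o) a b) :
    {x | P x ∧ x * a = a * x ∧ x * b = b * x}.ncard ≤ n := by
  obtain ⟨k, rfl, rfl⟩ := col_conj F h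
  refine le_trans (ncard_conj_le k fun x hx => ?_) hn
  exact ⟨hP x k hx.1, back_comm hx.2.1, back_comm hx.2.2⟩

theorem tr_inv (a b : G) (h : Col (geo F.ch o) a b) :
    {x : G | x * x = 1 ∧ x * a = a * x ∧ (x * b * x⁻¹ = b ∨ x * b * x⁻¹ = a * b)}.ncard ≤ 100093370368 := by
  obtain ⟨k, rfl, rfl⟩ := col_conj F h
  refine le_trans (ncard_conj_le k fun x hx => ?_) (inv_std F)
  refine ⟨?_, back_comm hx.2.1, hx.2.2.imp back fun e => back (e.trans (by group))⟩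
  calc k⁻¹ * x * k * (k⁻¹ * x * k) = k⁻¹ * (x * x) * k := by group
    _ = 1 := by rw [hx.1]; group

theorem tr_rot {P : G → Prop} (hP : ∀ x g, P x → P (g⁻¹ * x * g)) {n : ℕ}
    (hn : ∀ w ∈ Q, eta w ∈ S4 →
      {x | P x ∧ x * z = z * x ∧ x * y * x⁻¹ = w ∧ y * w * (x * w * x⁻¹) = 1}.ncard ≤ n)
    (c v w : G) (h : Col (geo F.ch o) c v) (hw : w ∈ SS (geo F.ch o) c v) :
    {x | P x ∧ x * c = c * x ∧ x * v * x⁻¹ = w ∧ v * w * (x * w * x⁻¹) = 1}.ncard ≤ n := by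
  obtain ⟨k, rfl, rfl⟩ := col_conj F h
  obtain ⟨h1, h2⟩ := (SS_std F o).1 (SS_back F h hw)
  refine le_trans (ncard_conj_le k fun x hx => ?_) (hn _ h1 h2)
  refine ⟨hP x k hx.1, back_comm hx.2.1, back (hx.2.2.1.trans (by group)), ?_⟩
  calc _ = k⁻¹ * (k * y * k⁻¹ * w * (x * w * x⁻¹)) * k := by group
    _ = 1 := by rw [hx.2.2.2]; group

theorem tr_plane (a b w : G) (h : Col (geo F.ch o) a b) (hw : w ∈ SS (geo F.ch o) a b) :
    Nat.card (centralizer ({a, b, w} : Set G)) ≤ 141557760 * 2 ^ 23 := by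
  obtain ⟨k, rfl, rfl⟩ := col_conj F h
  obtain ⟨h1, h2⟩ := (SS_std F o).1 (SS_back F h hw)
  refine le_trans (ncard_conj_le k fun x hx => ?_) (cent_plane F h1 h2)
  rw [SetLike.mem_coe, Subgroup.mem_centralizer_iff] at hx ⊢
  rintro u (rfl | rfl | rfl)
  · exact (back_comm (hx _ (by simp)).symm).symm
  · exact (back_comm (hx _ (by simp)).symm).symm
  · refine (back_comm ?_).symm
    simpa [mul_assoc] using (hx w (by simp)).symm

variable (ho : CoOneType.SignFacts.wt o = 8) (hE : TE F.ch τ)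
include ho hE

theorem tr_ark {P : G → Prop} (hP : ∀ x g, P x → P (g⁻¹ * x * g)) {n : ℕ}
    (hn : {x | P x ∧ x * z = z * x ∧ x ∈ Subgroup.normalizer (T F.ch o : Set G)}.ncard ≤ n) {O : Subgroup G}
    (hO : O ∈ (geo F.ch o).Ark) (c : G) (hc : c ∈ O) (hc' : c ∈ (geo F.ch o).Pt) :
    {x | P x ∧ x * c = c * x ∧ Nm O x}.ncard ≤ n := by
  obtain ⟨k, rfl, rfl⟩ := std1 (facts ho) F hE hO hc hc'
  refine le_trans (ncard_conj_le k fun x hx => ?_) hn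
  refine ⟨hP x k hx.1, back_comm hx.2.1, Subgroup.mem_normalizer_fintype fun a ha => ?_⟩
  have h1 := mem_cj.1 (hx.2.2 _ (conj_mem_cj.2 ha))
  simpa [mul_assoc] using h1

theorem ark_527 {O : Subgroup G} (hO : O ∈ (geo F.ch o).Ark) : {a | a ∈ O ∧ a ∈ (geo F.ch o).Pt}.ncard = 527 := by
  have h0 : {a | a ∈ T F.ch o ∧ a ∈ (geo F.ch o).Pt}.ncard = 527 := by
    obtain ⟨t, -, -, -, -, ι, C⟩ := H848.TenE.exists_crd F.ch (facts ho) F.hyQ F.hy F.τz F.τy hE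
    have h1 : ι 0 = 1 := by
      have := C.add 0 0
      rw [add_zero] at this
      exact (mul_eq_left.1 this.symm)
    rw [← H848.TenG.ncard_sing, ← Set.ncard_image_of_injective _ C.inj]
    congr 1
    ext a
    constructor
    · rintro ⟨h2, h3⟩
      obtain ⟨v, rfl⟩ := (C.mem a).1 h2
      refine ⟨v, ⟨(C.kap v).symm.trans (H848.TenD.kap_eq_zero.2 (Or.inr h3)), ?_⟩, rfl⟩
      rintro rfl
      exact (basic F o).pt_ne _ h3 h1
    · rintro ⟨v, ⟨h2, h3⟩, rfl⟩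
      exact ⟨(C.mem _).2 ⟨v, rfl⟩, (H848.TenD.kap_eq_zero.1 ((C.kap v).trans h2)).resolve_left
        fun e => h3 (C.inj (e.trans h1.symm))⟩
  obtain ⟨k, rfl⟩ := hO
  rw [← h0]
  refine le_antisymm (ncard_conj_le k fun a ha => ⟨mem_cj.1 ha.1, ?_⟩)
    (ncard_conj_le k⁻¹ fun a ha => ?_)
  · simpa using (basic F o).pt_conj a ha.2 k⁻¹
  · rw [inv_inv]
    exact ⟨conj_mem_cj.2 ha.1, (basic F o).pt_conj a ha.2 k⟩

omit hE in
theorem sing_card (hA : (geo F.ch o).ArkFacts) {F₀ : Subgroup G} (hS : (geo F.ch o).Sing F₀) {a b : G} (ha : a ∈ F₀)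
    (hb : b ∈ F₀) (ha1 : a ≠ 1) (hb1 : b ≠ 1) (hab : b ≠ a) : (F₀ : Set G).ncard ≤ 32 := by
  obtain ⟨k, S⟩ := R2.H8.Mon.Adj.exists_conj_SF F hS.1 hS.2 ha ha1 hb hb1 hab
  obtain ⟨O, hO, hle⟩ := R2.H8.Mon.Ex.exists_ark ho F S
  refine le_trans (ncard_conj_le (Y := (cj k⁻¹ F₀ : Subgroup G)) k fun x hx => ?_) (hA.ts_card O hO _ hle S.pt)
  simpa using (conj_mem_cj (g := k⁻¹)).2 hx

end Cfsg.Agent.SP.Mon.Two
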